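import Mathlib

/-!
# Additive maps of a finite field and weights (helper117, S3691, Lemma W)
-/

set_option autoImplicit false

namespace Cfsg.Agent.H117.Rg

open Finset

section

variable {p b : ℕ} [Fact p.Prime] {E : Type*} [Field E] [Fintype E]

/-- additive maps of `E` are `p`-polynomials; with coefficients which depend additively on parameters -/
theorem exists_coeff (hE : Fintype.card E = p ^ b) :
    ∃ a : (E →+ E) →+ (Fin b → E), ∀ (f : E →+ E) (x : E), f x = ∑ i : Fin b, a f i * x ^ (p ^ (i : ℕ)) := by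
  classical
  have : CharP E p := by
    obtain ⟨r, hr⟩ := CharP.exists E
    obtain ⟨n, hn1, hn2⟩ := FiniteField.card E r
    have h1 : r ∣ p ^ b := by
      rw [← hE, hn2]
      exact dvd_pow_self r n.ne_zero
    have h2 := (Nat.prime_dvd_prime_iff_eq hn1 (Fact.out : p.Prime)).1 (hn1.dvd_of_dvd_pow h1)
    rwa [← h2]
  let _ : Algebra (ZMod p) E := ZMod.algebra E p
  have hb : Module.finrank (ZMod p) E = b := by
    have h1 := Module.card_eq_pow_finrank (K := ZMod p) (V := E)
    rw [ZMod.card, hE] at h1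
    exact (Nat.pow_right_injective (Fact.out : p.Prime).two_le h1).symm
  have hb0 : 0 < b := by
    rw [← hb]; exact Module.finrank_pos
  -- the powers of the Frobenius as linear maps
  let φ : Fin b → (E →ₗ[ZMod p] E) := fun i =>
    AddMonoidHom.toZModLinearMap p ((iterateFrobenius E p (i : ℕ)).toAddMonoidHom)
  have hφ : ∀ i x, φ i x = x ^ (p ^ (i : ℕ)) := by
    intro i x
    change iterateFrobenius E p (i : ℕ) x = _
    rw [iterateFrobenius_def]
  have hli : LinearIndependent E φ := by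
    have h1 := linearIndependent_monoidHom E E
    -- distinct monoid homs
    have hinj : Function.Injective (fun i : Fin b => (powMonoidHom (p ^ (i : ℕ)) : E →* E)) := by
      intro i j hij
      obtain ⟨g, hg⟩ := IsCyclic.exists_generator (α := Eˣ)
      have hord : orderOf g = p ^ b - 1 := by
        rw [orderOf_eq_card_of_forall_mem_zpowers hg, Nat.card_eq_fintype_card, Fintype.card_units, hE]
      have h2 : (g : E) ^ (p ^ (i : ℕ)) = (g : E) ^ (p ^ (j : ℕ)) := by
        have := congrArg (fun F : E →* E => F (g : E)) hij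
        simpa using this
      have h3 : g ^ (p ^ (i : ℕ)) = g ^ (p ^ (j : ℕ)) := by
        ext
        simpa using h2
      have hlt : ∀ k : Fin b, 1 ≤ p ^ (k : ℕ) ∧ p ^ (k : ℕ) ≤ p ^ b - 1 := by
        intro k
        have hp1 : 1 < p := (Fact.out : p.Prime).one_lt
        have h4 : p ^ (k : ℕ) < p ^ b := Nat.pow_lt_pow_right hp1 k.2
        exact ⟨Nat.one_le_pow _ _ (by omega), by omega⟩
      have h5 := pow_inj_mod.1 h3
      rw [hord] at h5
      have h6 := hlt i
      have h7 := hlt j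
      have hinjp : Function.Injective (fun n : ℕ => p ^ n) :=
        Nat.pow_right_injective (Fact.out : p.Prime).two_le
      rcases Nat.lt_or_ge (p ^ (i : ℕ)) (p ^ b - 1) with h8 | h8
      · rcases Nat.lt_or_ge (p ^ (j : ℕ)) (p ^ b - 1) with h9 | h9
        · rw [Nat.mod_eq_of_lt h8, Nat.mod_eq_of_lt h9] at h5
          exact Fin.ext (hinjp h5)
        · have h10 : p ^ (j : ℕ) = p ^ b - 1 := by omega
          rw [Nat.mod_eq_of_lt h8, h10, Nat.mod_self] at h5
          omega
      · have h10 : p ^ (i : ℕ) = p ^ b - 1 := by omega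
        rcases Nat.lt_or_ge (p ^ (j : ℕ)) (p ^ b - 1) with h9 | h9
        · rw [Nat.mod_eq_of_lt h9, h10, Nat.mod_self] at h5
          omega
        · have h11 : p ^ (j : ℕ) = p ^ b - 1 := by omega
          exact Fin.ext (hinjp (h10.trans h11.symm))
    have h2 := h1.comp _ hinj
    rw [Fintype.linearIndependent_iff] at h2 ⊢
    intro c hc i
    refine h2 c ?_ i
    ext x
    have := congrArg (fun F : E →ₗ[ZMod p] E => F x) hc
    simp only [LinearMap.sum_apply, LinearMap.smul_apply, hφ, smul_eq_mul, LinearMap.zero_apply] at this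
    simpa [Finset.sum_apply, Pi.smul_apply, powMonoidHom_apply] using this
  have hcard : Fintype.card (Fin b) = Module.finrank E (E →ₗ[ZMod p] E) := by
    rw [Fintype.card_fin, Module.finrank_linearMap, hb, Module.finrank_self, mul_one]
  have : Nonempty (Fin b) := ⟨⟨0, hb0⟩⟩
  let B := basisOfLinearIndependentOfCardEqFinrank hli hcard
  refine ⟨⟨⟨fun f i => B.repr (AddMonoidHom.toZModLinearMap p f) i, ?_⟩, ?_⟩, ?_⟩
  · ext i
    have h0 : AddMonoidHom.toZModLinearMap p (0 : E →+ E) = 0 := by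
      ext x; rfl
    simp only [h0, map_zero]
    rfl
  · intro f g
    ext i
    have h0 : AddMonoidHom.toZModLinearMap p (f + g) =
        AddMonoidHom.toZModLinearMap p f + AddMonoidHom.toZModLinearMap p g := by
      ext x; rfl
    simp only [h0, map_add]
    rfl
  · intro f x
    have h3 := B.sum_repr (AddMonoidHom.toZModLinearMap p f)
    have h4 := congrArg (fun F : E →ₗ[ZMod p] E => F x) h3
    simp only [LinearMap.sum_apply, LinearMap.smul_apply, smul_eq_mul] at h4
    have h5 : (AddMonoidHom.toZModLinearMap p f) x = f x := rfl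
    rw [← h5, ← h4]
    refine Finset.sum_congr rfl fun i _ => ?_
    have h6 : B i = φ i := by
      rw [coe_basisOfLinearIndependentOfCardEqFinrank]
    rw [h6, hφ]
    rfl

/-- the general averaging lemma, one variable -/
theorem add_zero_of (hE : Fintype.card E = p ^ b) {β γ : ℕ}
    (hdvd : ∀ j : ℕ, j < b → ¬ (p ^ b - 1) ∣ (γ + β * p ^ j)) (c : E → E)
    (hadd : ∀ x y, c (x + y) = c x + c y) (hc : ∀ u : E, u ≠ 0 → ∀ t, u ^ γ * c (u ^ β * t) = c t) (t : E) :
    c t = 0 := by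
  classical
  obtain ⟨a, ha⟩ := exists_coeff (p := p) (b := b) hE
  let f : E →+ E := AddMonoidHom.mk' c hadd
  have hf : ∀ x, c x = ∑ i : Fin b, a f i * x ^ (p ^ (i : ℕ)) := fun x => ha f x
  have h1 : ∑ u : Eˣ, ((u : E) ^ γ * c ((u : E) ^ β * t)) = ∑ _u : Eˣ, c t :=
    Finset.sum_congr rfl fun u _ => hc u u.ne_zero t
  have h2 : ∑ u : Eˣ, ((u : E) ^ γ * c ((u : E) ^ β * t)) = 0 := by
    have h3 : ∀ u : Eˣ, ((u : E) ^ γ * c ((u : E) ^ β * t)) =
        ∑ i : Fin b, (a f i * t ^ (p ^ (i : ℕ))) * ((u : E) ^ (γ + β * p ^ (i : ℕ))) := by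
      intro u
      rw [hf, Finset.mul_sum]
      refine Finset.sum_congr rfl fun i _ => ?_
      rw [mul_pow, ← pow_mul, pow_add]
      ring
    rw [Finset.sum_congr rfl fun u _ => h3 u, Finset.sum_comm]
    refine Finset.sum_eq_zero fun i _ => ?_
    rw [← Finset.mul_sum]
    have h4 := FiniteField.sum_pow_units E (γ + β * p ^ (i : ℕ))
    rw [hE, if_neg (hdvd i i.2)] at h4
    rw [h4, mul_zero]
  rw [h2, Finset.sum_const, Finset.card_univ, Fintype.card_units, nsmul_eq_mul,
    Nat.cast_sub Fintype.card_pos, FiniteField.cast_card_eq_zero] at h1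
  simp only [Nat.cast_one, zero_sub, neg_mul, one_mul] at h1
  exact neg_eq_zero.1 h1.symm

/-- the general averaging lemma, two variables -/
theorem biadd_zero_of (hE : Fintype.card E = p ^ b) {α β γ : ℕ}
    (hdvd : ∀ i j : ℕ, i < b → j < b → ¬ (p ^ b - 1) ∣ (γ + α * p ^ i + β * p ^ j)) (X : E → E → E)
    (h1 : ∀ x y t, X (x + y) t = X x t + X y t) (h2 : ∀ x s t, X x (s + t) = X x s + X x t)
    (hX : ∀ u : E, u ≠ 0 → ∀ x t, u ^ γ * X (u ^ α * x) (u ^ β * t) = X x t) : X = 0 := by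
  classical
  obtain ⟨a, ha⟩ := exists_coeff (p := p) (b := b) hE
  -- `t ↦ X · t` is additive
  let F : E →+ (E →+ E) := AddMonoidHom.mk' (fun t => AddMonoidHom.mk' (fun x => X x t) (fun x y => h1 x y t))
    (fun s t => by ext x; exact h2 x s t)
  let A : Fin b → (E →+ E) := fun i => AddMonoidHom.mk' (fun t => a (F t) i) (fun s t => by
    rw [map_add, map_add]; rfl)
  have hF : ∀ x t, X x t = ∑ i : Fin b, (∑ j : Fin b, a (A i) j * t ^ (p ^ (j : ℕ))) * x ^ (p ^ (i : ℕ)) := by
    intro x t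
    have h3 : X x t = ∑ i : Fin b, a (F t) i * x ^ (p ^ (i : ℕ)) := ha (F t) x
    rw [h3]
    refine Finset.sum_congr rfl fun i _ => ?_
    rw [← ha (A i) t]
    rfl
  funext x t
  have h3 : ∑ u : Eˣ, ((u : E) ^ γ * X ((u : E) ^ α * x) ((u : E) ^ β * t)) = ∑ _u : Eˣ, X x t :=
    Finset.sum_congr rfl fun u _ => hX u u.ne_zero x t
  have h4 : ∑ u : Eˣ, ((u : E) ^ γ * X ((u : E) ^ α * x) ((u : E) ^ β * t)) = 0 := by
    have h5 : ∀ u : Eˣ, ((u : E) ^ γ * X ((u : E) ^ α * x) ((u : E) ^ β * t)) =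
        ∑ i : Fin b, ∑ j : Fin b, (a (A i) j * t ^ (p ^ (j : ℕ)) * x ^ (p ^ (i : ℕ))) *
          ((u : E) ^ (γ + α * p ^ (i : ℕ) + β * p ^ (j : ℕ))) := by
      intro u
      rw [hF, Finset.mul_sum]
      refine Finset.sum_congr rfl fun i _ => ?_
      rw [Finset.sum_mul, Finset.mul_sum]
      refine Finset.sum_congr rfl fun j _ => ?_
      rw [mul_pow, mul_pow, ← pow_mul, ← pow_mul, pow_add, pow_add]
      ring
    rw [Finset.sum_congr rfl fun u _ => h5 u, Finset.sum_comm]
    refine Finset.sum_eq_zero fun i _ => ?_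
    rw [Finset.sum_comm]
    refine Finset.sum_eq_zero fun j _ => ?_
    rw [← Finset.mul_sum]
    have h6 := FiniteField.sum_pow_units E (γ + α * p ^ (i : ℕ) + β * p ^ (j : ℕ))
    rw [hE, if_neg (hdvd i j i.2 j.2)] at h6
    rw [h6, mul_zero]
  rw [h4, Finset.sum_const, Finset.card_univ, Fintype.card_units, nsmul_eq_mul,
    Nat.cast_sub Fintype.card_pos, FiniteField.cast_card_eq_zero] at h3
  simp only [Nat.cast_one, zero_sub, neg_mul, one_mul] at h3
  exact neg_eq_zero.1 h3.symm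

end

/-! ### arithmetic -/

theorem not_dvd_of_lt {m n : ℕ} (h0 : 0 < n) (h : n < m) : ¬ m ∣ n := fun hd => by
  have := Nat.le_of_dvd h0 hd
  omega

/-- `p ^ b - 1` does not divide `1 + 2 p ^ j` -/
theorem ar12 {p b : ℕ} (hp : p.Prime) (h16 : 16 ≤ p ^ b) {j : ℕ} (hj : j < b) :
    ¬ (p ^ b - 1) ∣ (1 + 2 * p ^ j) := by
  obtain ⟨c, rfl⟩ : ∃ c, b = c + 1 := ⟨b - 1, by omega⟩
  have hjc : p ^ j ≤ p ^ c := Nat.pow_le_pow_right hp.pos (by omega)
  rw [pow_succ] at h16 ⊢
  rcases Nat.lt_or_ge p 3 with h3 | h3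
  · have hp2 : p = 2 := by have := hp.two_le; omega
    subst hp2
    rcases Nat.lt_or_ge j c with hj' | hj'
    · obtain ⟨d, rfl⟩ : ∃ d, c = d + 1 := ⟨c - 1, by omega⟩
      have hjd : 2 ^ j ≤ 2 ^ d := Nat.pow_le_pow_right (by norm_num) (by omega)
      rw [pow_succ] at h16 ⊢
      exact not_dvd_of_lt (by omega) (by omega)
    · have hjc : j = c := by omega
      subst hjc
      intro hd
      have h1 : 2 ^ j * 2 - 1 ∣ 2 := by
        have h2 := Nat.dvd_sub hd (dvd_refl (2 ^ j * 2 - 1))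
        have h3 : 1 + 2 * 2 ^ j - (2 ^ j * 2 - 1) = 2 := by omega
        rwa [h3] at h2
      exact not_dvd_of_lt (by norm_num) (by omega) h1
  · have h1 : p ^ c * 3 ≤ p ^ c * p := Nat.mul_le_mul_left _ h3
    refine not_dvd_of_lt (by omega) ?_
    rcases Nat.lt_or_ge (p ^ c) 3 with h4 | h4
    · -- `c = 0`, `p >= 16` or so
      rcases Nat.eq_zero_or_pos c with rfl | hc
      · simp only [pow_zero, one_mul] at h16 hjc ⊢
        omega
      · have : p ^ 1 ≤ p ^ c := Nat.pow_le_pow_right hp.pos hc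
        rw [pow_one] at this
        omega
    · omega

/-- `p ^ b - 1` does not divide `2 p ^ j` -/
theorem ar02 {p b : ℕ} (hp : p.Prime) (h16 : 16 ≤ p ^ b) {j : ℕ} : ¬ (p ^ b - 1) ∣ (2 * p ^ j) := by
  intro hd
  have hcop : Nat.Coprime (p ^ b - 1) (p ^ j) := by
    apply Nat.Coprime.pow_right
    rw [Nat.coprime_comm, Nat.Prime.coprime_iff_not_dvd hp]
    intro h1
    have hb : b ≠ 0 := by
      rintro rfl
      simp at h16
    have h2 : p ∣ p ^ b := dvd_pow_self p hb
    have h3 := (Nat.dvd_sub_iff_right (show 1 ≤ p ^ b by omega) h2).1 h1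
    have := hp.one_lt
    have := Nat.le_of_dvd one_pos h3
    omega
  have h1 := hcop.dvd_of_dvd_mul_right hd
  exact not_dvd_of_lt (by norm_num) (by omega) h1

theorem coprime_pow_sub {p b j : ℕ} (hp : p.Prime) (h16 : 16 ≤ p ^ b) : Nat.Coprime (p ^ b - 1) (p ^ j) := by
  apply Nat.Coprime.pow_right
  rw [Nat.coprime_comm, Nat.Prime.coprime_iff_not_dvd hp]
  intro h1
  have hb : b ≠ 0 := by
    rintro rfl
    simp at h16
  have h2 : p ∣ p ^ b := dvd_pow_self p hb
  have h3 := (Nat.dvd_sub_iff_right (show 1 ≤ p ^ b by omega) h2).1 h1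
  have := hp.one_lt
  have := Nat.le_of_dvd one_pos h3
  omega

/-- `p ^ b - 1` does not divide `p ^ i + 2 p ^ j` -/
theorem ar_12 {p b : ℕ} (hp : p.Prime) (h16 : 16 ≤ p ^ b) {i j : ℕ} (hi : i < b) (hj : j < b) :
    ¬ (p ^ b - 1) ∣ (p ^ i + 2 * p ^ j) := by
  rcases Nat.le_total i j with hij | hij
  · obtain ⟨k, rfl⟩ := Nat.exists_eq_add_of_le hij
    intro hd
    have e : p ^ i + 2 * p ^ (i + k) = (1 + 2 * p ^ k) * p ^ i := by ring
    rw [e] at hd
    exact ar12 hp h16 (show k < b by omega) ((coprime_pow_sub hp h16).dvd_of_dvd_mul_right hd)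
  · obtain ⟨k, rfl⟩ := Nat.exists_eq_add_of_le hij
    intro hd
    have e : p ^ (j + k) + 2 * p ^ j = (p ^ k + 2) * p ^ j := by ring
    rw [e] at hd
    have h1 := (coprime_pow_sub hp h16).dvd_of_dvd_mul_right hd
    refine not_dvd_of_lt (by omega) ?_ h1
    obtain ⟨c, rfl⟩ : ∃ c, b = c + 1 := ⟨b - 1, by omega⟩
    have hkc : p ^ k ≤ p ^ c := Nat.pow_le_pow_right hp.pos (by omega)
    have h2 : p ^ c * 2 ≤ p ^ c * p := Nat.mul_le_mul_left _ hp.two_le
    rw [pow_succ] at h16 ⊢
    rcases Nat.lt_or_ge (p ^ c) 4 with h4 | h4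
    · have : p ^ c * p ≤ 3 * p := Nat.mul_le_mul_right _ (by omega)
      have hp6 : 6 ≤ p := by omega
      rcases Nat.eq_zero_or_pos c with rfl | hc
      · simp only [pow_zero, one_mul] at h16 hkc ⊢
        omega
      · have : p ^ 1 ≤ p ^ c := Nat.pow_le_pow_right hp.pos hc
        rw [pow_one] at this
        omega
    · omega

/-- `p ^ b - 1` does not divide `1 + p ^ i + 2 p ^ j` -/
theorem ar112 {p b : ℕ} (hp : p.Prime) (h16 : 16 ≤ p ^ b) {i j : ℕ} (hi : i < b) (hj : j < b) :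
    ¬ (p ^ b - 1) ∣ (1 + p ^ i + 2 * p ^ j) := by
  obtain ⟨c, rfl⟩ : ∃ c, b = c + 1 := ⟨b - 1, by omega⟩
  have hic : p ^ i ≤ p ^ c := Nat.pow_le_pow_right hp.pos (by omega)
  have hjc : p ^ j ≤ p ^ c := Nat.pow_le_pow_right hp.pos (by omega)
  rw [pow_succ] at h16 ⊢
  rcases Nat.lt_or_ge p 4 with h4 | h4
  · rcases (show p = 2 ∨ p = 3 by have := hp.two_le; omega) with rfl | rfl
    · -- p = 2
      have hc3 : 3 ≤ c := by
        by_contra hne
        have : 2 ^ c ≤ 2 ^ 2 := Nat.pow_le_pow_right (by norm_num) (by omega)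
        omega
      obtain ⟨d, rfl⟩ : ∃ d, c = d + 2 := ⟨c - 2, by omega⟩
      have hd1 : 2 ≤ 2 ^ d := by
        calc 2 = 2 ^ 1 := by norm_num
          _ ≤ 2 ^ d := Nat.pow_le_pow_right (by norm_num) (by omega)
      have e : 2 ^ (d + 2) = 4 * 2 ^ d := by ring
      have hi0 : 0 < 2 ^ i := by positivity
      have hj0 : 0 < 2 ^ j := by positivity
      have e1 : 2 ^ (d + 1) = 2 * 2 ^ d := by ring
      rcases (show j = d + 2 ∨ j = d + 1 ∨ j ≤ d by omega) with rfl | rfl | hj'
      · intro hd'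
        have h2 := Nat.dvd_sub hd' (dvd_refl (2 ^ (d + 2) * 2 - 1))
        have h3 : 1 + 2 ^ i + 2 * 2 ^ (d + 2) - (2 ^ (d + 2) * 2 - 1) = 2 + 2 ^ i := by omega
        rw [h3] at h2
        exact not_dvd_of_lt (by omega) (by omega) h2
      · rcases (show i = d + 2 ∨ i ≤ d + 1 by omega) with rfl | hi'
        · intro hd'
          have h2 := Nat.dvd_sub hd' (dvd_refl (2 ^ (d + 2) * 2 - 1))
          have h3 : 1 + 2 ^ (d + 2) + 2 * 2 ^ (d + 1) - (2 ^ (d + 2) * 2 - 1) = 2 := by omega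
          rw [h3] at h2
          exact not_dvd_of_lt (by norm_num) (by omega) h2
        · have h5 : 2 ^ i ≤ 2 ^ (d + 1) := Nat.pow_le_pow_right (by norm_num) hi'
          exact not_dvd_of_lt (by omega) (by omega)
      · have h5 : 2 ^ j ≤ 2 ^ d := Nat.pow_le_pow_right (by norm_num) hj'
        exact not_dvd_of_lt (by omega) (by omega)
    · -- p = 3
      have hc2 : 2 ≤ c := by
        by_contra hne
        have : 3 ^ c ≤ 3 ^ 1 := Nat.pow_le_pow_right (by norm_num) (by omega)
        omega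
      obtain ⟨d, rfl⟩ : ∃ d, c = d + 1 := ⟨c - 1, by omega⟩
      have hd1 : 3 ≤ 3 ^ d := by
        calc 3 = 3 ^ 1 := by norm_num
          _ ≤ 3 ^ d := Nat.pow_le_pow_right (by norm_num) (by omega)
      have e : 3 ^ (d + 1) = 3 * 3 ^ d := by ring
      have hi0 : 0 < 3 ^ i := by positivity
      have hj0 : 0 < 3 ^ j := by positivity
      rcases (show j = d + 1 ∨ j ≤ d by omega) with rfl | hj'
      · rcases (show i = d + 1 ∨ i ≤ d by omega) with rfl | hi'
        · intro hd'
          have h2 := Nat.dvd_sub hd' (dvd_refl (3 ^ (d + 1) * 3 - 1))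
          have h3 : 1 + 3 ^ (d + 1) + 2 * 3 ^ (d + 1) - (3 ^ (d + 1) * 3 - 1) = 2 := by omega
          rw [h3] at h2
          exact not_dvd_of_lt (by norm_num) (by omega) h2
        · have h5 : 3 ^ i ≤ 3 ^ d := Nat.pow_le_pow_right (by norm_num) hi'
          exact not_dvd_of_lt (by omega) (by omega)
      · have h5 : 3 ^ j ≤ 3 ^ d := Nat.pow_le_pow_right (by norm_num) hj'
        exact not_dvd_of_lt (by omega) (by omega)
  · have hp5 : 5 ≤ p := by
      rcases Nat.lt_or_ge p 5 with h5 | h5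
      · have : p = 4 := by omega
        subst this
        exact absurd hp (by norm_num)
      · exact h5
    have h1 : p ^ c * 5 ≤ p ^ c * p := Nat.mul_le_mul_left _ hp5
    refine not_dvd_of_lt (by omega) ?_
    rcases Nat.lt_or_ge (p ^ c) 2 with h6 | h6
    · rcases Nat.eq_zero_or_pos c with rfl | hc
      · simp only [pow_zero, one_mul] at h16 hic hjc ⊢
        omega
      · have : p ^ 1 ≤ p ^ c := Nat.pow_le_pow_right hp.pos hc
        rw [pow_one] at this
        omega
    · omega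

/-! ### the four cases -/

section

variable {p b : ℕ} [Fact p.Prime] {E : Type*} [Field E] [Fintype E]

/-- weights `1, 2 → -1` -/
theorem biadd_zero (hE : Fintype.card E = p ^ b) (h16 : 16 ≤ p ^ b) (X : E → E → E)
    (h1 : ∀ x y t, X (x + y) t = X x t + X y t) (h2 : ∀ x s t, X x (s + t) = X x s + X x t)
    (hX : ∀ (u : E), u ≠ 0 → ∀ x t, u * X (u * x) (u ^ 2 * t) = X x t) : X = 0 := by
  refine biadd_zero_of hE (α := 1) (β := 2) (γ := 1) ?_ X h1 h2 ?_
  · intro i j hi hj
    have := ar112 (Fact.out : p.Prime) h16 hi hj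
    rwa [one_mul]
  · intro u hu x t
    rw [pow_one]
    exact hX u hu x t

/-- weights `1, 2 → 0` -/
theorem biadd_zero' (hE : Fintype.card E = p ^ b) (h16 : 16 ≤ p ^ b) (X : E → E → E)
    (h1 : ∀ x y t, X (x + y) t = X x t + X y t) (h2 : ∀ x s t, X x (s + t) = X x s + X x t)
    (hX : ∀ (u : E), u ≠ 0 → ∀ x t, X (u * x) (u ^ 2 * t) = X x t) : X = 0 := by
  refine biadd_zero_of hE (α := 1) (β := 2) (γ := 0) ?_ X h1 h2 ?_
  · intro i j hi hj
    have := ar_12 (Fact.out : p.Prime) h16 hi hj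
    rwa [one_mul, zero_add]
  · intro u hu x t
    rw [pow_zero, one_mul, pow_one]
    exact hX u hu x t

/-- weight `2 → -1` -/
theorem add_zero_neg (hE : Fintype.card E = p ^ b) (h16 : 16 ≤ p ^ b) (c : E → E)
    (hadd : ∀ x y, c (x + y) = c x + c y) (hc : ∀ u : E, u ≠ 0 → ∀ t, u * c (u ^ 2 * t) = c t) : c = 0 := by
  funext t
  refine add_zero_of hE (β := 2) (γ := 1) ?_ c hadd ?_ t
  · intro j hj
    exact ar12 (Fact.out : p.Prime) h16 hj
  · intro u hu s
    rw [pow_one]
    exact hc u hu s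

/-- weight `2 → 0` -/
theorem add_zero_zero (hE : Fintype.card E = p ^ b) (h16 : 16 ≤ p ^ b) (c : E → E)
    (hadd : ∀ x y, c (x + y) = c x + c y) (hc : ∀ u : E, u ≠ 0 → ∀ t, c (u ^ 2 * t) = c t) : c = 0 := by
  funext t
  refine add_zero_of hE (β := 2) (γ := 0) ?_ c hadd ?_ t
  · intro j _
    rw [zero_add]
    exact ar02 (Fact.out : p.Prime) h16
  · intro u hu s
    rw [pow_zero, one_mul]
    exact hc u hu s

end

end Cfsg.Agent.H117.Rg
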